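import Cfsg.Agent.Lib.H1.WeakClosure3

/-!
# Weak closure of central subgroups: existence of the configuration and the fusion theorem
-/

set_option autoImplicit false

universe u

namespace Cfsg.Agent.H1

open Subgroup Cfsg.FusionSystem
open scoped Pointwise commutatorElement

section Group

variable {G : Type u} [Group G] {p : ℕ}

/-- An element normalizing `Y` acting transitively on the non-trivial elements modulo `C`. -/
def HasTorus (Y : Subgroup G) : Prop :=
  ∃ g ∈ normalizer (Y : Set G), ∃ C : Subgroup G, (∀ c ∈ C, g * c * g⁻¹ = c) ∧ ¬ Y ≤ C ∧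
    ∀ u ∈ Y, ∀ v ∈ Y, u ∉ C → v ∉ C → ∃ n : ℕ, v⁻¹ * (g ^ n * u * (g ^ n)⁻¹) ∈ C

theorem HasTorus.of_conj {Y : Subgroup G} {k : G} (h : HasTorus (MulAut.conj k • Y)) :
    HasTorus Y := by
  obtain ⟨g, hg, C, h1, h2, h3⟩ := h
  refine ⟨k⁻¹ * g * k, mem_normalizer_conj_smul_iff.1 hg, MulAut.conj k⁻¹ • C, fun c hc => ?_,
    fun hc => h2 fun y hy => ?_, fun u hu v hv hu' hv' => ?_⟩
  · have := h1 _ (mem_conj_smul_iff.1 hc)
    calc k⁻¹ * g * k * c * (k⁻¹ * g * k)⁻¹ = k⁻¹ * (g * (k⁻¹⁻¹ * c * k⁻¹) * g⁻¹) * k := by group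
      _ = c := by rw [this]; group
  · have := mem_conj_smul_iff.1 (hc (mem_conj_smul_iff.1 hy))
    simpa [mul_assoc] using this
  · rw [mem_conj_smul_iff, inv_inv] at hu' hv'
    obtain ⟨n, hn⟩ := h3 _ (conj_mem_conj_smul_iff.2 hu) _ (conj_mem_conj_smul_iff.2 hv) hu' hv'
    refine ⟨n, ?_⟩
    have e := conj_pow (i := n) (a := k⁻¹) (b := g)
    rw [inv_inv] at e
    rw [mem_conj_smul_iff, e]
    convert hn using 1
    group

variable [Finite G] [Fact p.Prime]

theorem mem_normalizer_of_thompson {S T : Subgroup G} (hS : IsSylowIn p S ⊤)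
    (hT : T ≤ centralizer (S : Set G))
    (hN : normalizer (thompsonSubgroupAOf S : Set G) ≤ normalizer (T : Set G)) {g : G}
    (hc : MulAut.conj g • T ≤ centralizer (thompsonSubgroupAOf S : Set G)) :
    MulAut.conj g • T = T := by
  have h1 : IsSylowIn p (MulAut.conj g • S) (centralizer ((MulAut.conj g • T : Subgroup G) : Set G)) :=
    (hS.conj_smul_of_mem_normalizer (le_normalizer (mem_top g))).mono (by
      rw [← conj_smul_centralizer]
      exact conj_smul_le_conj_smul_iff.2 (le_centralizer_iff.1 hT)) le_top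
  obtain ⟨k, hk, hle⟩ := h1.exists_conj_le (hS.isPGroup.to_le (thompson_le S))
    (le_centralizer_iff.1 hc)
  have h2 : thompsonSubgroupAOf S ≤ MulAut.conj (k⁻¹ * g) • S := fun a ha => by
    have := mem_conj_smul_iff.1 (hle (conj_mem_conj_smul_iff.2 ha))
    rw [mem_conj_smul_iff]
    convert this using 1; group
  obtain ⟨A, hA⟩ := exists_maxAb S
  have h3 := thompson_eq_of_le_of_card hA (hA.conj_smul (k⁻¹ * g)) (card_smul _ _).le h2
  rw [← conj_smul_thompson] at h3
  have h4 := conj_smul_eq_iff_mem_normalizer.2 (hN (conj_smul_eq_iff_mem_normalizer.1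
    (eq_of_le_of_card_ge h3 (card_smul _ _).le).symm))
  have h5 := conj_smul_eq_iff_mem_normalizer.2 (inv_mem (centralizer_le_normalizer _ hk))
  rw [conj_smul_conj_smul, h4] at h5
  exact h5.symm

theorem conj_smul_eq_of_thompson {S R T : Subgroup G} (hS : IsSylowIn p S ⊤)
    (hR : IsSylowIn p R ⊤) (hT : T ≤ centralizer (S : Set G))
    (hN : normalizer (thompsonSubgroupAOf S : Set G) ≤ normalizer (T : Set G)) {g g' : G}
    (hc : MulAut.conj g • T ≤ centralizer (thompsonSubgroupAOf R : Set G))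
    (hc' : MulAut.conj g' • T ≤ centralizer (thompsonSubgroupAOf R : Set G)) :
    MulAut.conj g • T = MulAut.conj g' • T := by
  obtain ⟨k, -, rfl⟩ := hS.exists_conj hR
  rw [← conj_smul_thompson, le_centralizer_conj_smul_iff, conj_smul_conj_smul] at hc hc'
  have h1 := (mem_normalizer_of_thompson hS hT hN hc).trans
    (mem_normalizer_of_thompson hS hT hN hc').symm
  have h2 := congrArg (fun X => MulAut.conj k • X) h1
  simpa only [conj_smul_conj_smul, mul_inv_cancel_left] using h2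

/-- `U` is a `p`-subgroup containing `V` and centralizing two conjugates of `T`. -/
structure TwoFix' (p : ℕ) (V T U : Subgroup G) : Prop where
  isPGroup : IsPGroup p U
  le : V ≤ U
  fix : ∃ g g' : G, MulAut.conj g • T ≠ MulAut.conj g' • T ∧
    MulAut.conj g • T ≤ centralizer (U : Set G) ∧ MulAut.conj g' • T ≤ centralizer (U : Set G)

omit [Fact p.Prime] in
theorem exists_twoFix'_max {V T : Subgroup G} (h : TwoFix' p V T V) :
    ∃ U, TwoFix' p V T U ∧ U = V ⊔ thompsonSubgroupAOf U ∧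
      ∀ U', TwoFix' p V T U' → U ≤ U' → thompsonSubgroupAOf U' ≤ U := by
  choose d hd using fun U : Subgroup G => exists_maxAb U
  obtain ⟨U₁, hU₁, h1⟩ := Set.exists_max_image {U | TwoFix' p V T U} (fun U => Nat.card (d U))
    (Set.toFinite _) ⟨V, h⟩
  obtain ⟨U₀, ⟨hU₀, hU₀'⟩, h0⟩ := Set.exists_max_image
    {U | TwoFix' p V T U ∧ Nat.card (d U₁) ≤ Nat.card (d U)}
    (fun U => Nat.card (V ⊔ thompsonSubgroupAOf U : Subgroup G)) (Set.toFinite _)
    ⟨U₁, hU₁, le_rfl⟩
  have hle : V ⊔ thompsonSubgroupAOf U₀ ≤ U₀ := sup_le hU₀.le (thompson_le _)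
  have hJ := thompson_eq_of_le (le_sup_right : _ ≤ V ⊔ thompsonSubgroupAOf U₀) hle
  obtain ⟨g, g', e1, e2, e3⟩ := hU₀.fix
  refine ⟨V ⊔ thompsonSubgroupAOf U₀, ⟨hU₀.isPGroup.to_le hle, le_sup_left, g, g', e1,
    e2.trans (centralizer_le hle), e3.trans (centralizer_le hle)⟩, by rw [hJ],
    fun U' hU' hUU' => ?_⟩
  have f1 : Nat.card (d U₀) ≤ Nat.card (d U') :=
    (hd U').max _ ((hd U₀).le_thompson.trans (le_sup_right.trans hUU')) (hd U₀).isAb
  have f2 : thompsonSubgroupAOf U₀ ≤ thompsonSubgroupAOf U' :=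
    thompson_eq_of_le_of_card (hd U₀) (hd U') ((h1 U' hU').trans hU₀') (le_sup_right.trans hUU')
  rw [eq_of_le_of_card_ge (sup_le_sup_left f2 V) (h0 U' ⟨hU', hU₀'.trans f1⟩)]
  exact le_sup_right

theorem not_thompson_normalizer_le' {S R T U V : Subgroup G} [V.Normal] (hS : IsSylowIn p S ⊤)
    (hR : IsSylowIn p R ⊤) (hT : T ≤ centralizer (S : Set G))
    (hN : normalizer (thompsonSubgroupAOf S : Set G) ≤ normalizer (T : Set G))
    (hU : TwoFix' p V T U) (hUJ : U = V ⊔ thompsonSubgroupAOf U) (hUR : U ≤ R) :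
    ¬ thompsonSubgroupAOf (R ⊓ normalizer (U : Set G)) ≤ U := by
  intro h
  set P := R ⊓ normalizer (U : Set G) with hP
  have hJ := thompson_eq_of_le h (le_inf hUR le_normalizer)
  have h1 : P = R := by
    by_contra hne
    refine (lt_inf_normalizer_of_isPGroup hR.isPGroup (lt_of_le_of_ne inf_le_left hne)).not_ge
      (le_inf inf_le_left (inf_le_right.trans ?_))
    have : normalizer (P : Set G) ≤ normalizer ((V ⊔ thompsonSubgroupAOf P : Subgroup G) : Set G) :=
      le_normalizer_sup le_normalizer_of_normal (normalizer_le_normalizer_thompson P)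
    rwa [← hJ, ← hUJ] at this
  rw [h1] at h
  obtain ⟨g, g', e1, e2, e3⟩ := hU.fix
  exact e1 (conj_smul_eq_of_thompson hS hR hT hN (e2.trans (centralizer_le h))
    (e3.trans (centralizer_le h)))

theorem mem_centralizer_of_isSylowIn_le {S Y : Subgroup G} (hS : IsSylowIn p S ⊤)
    (hY : Y ≤ centralizer (S : Set G)) {x : G} (hx : x ∈ normalizer (Y : Set G))
    (hp : ∃ k, x ^ p ^ k = 1) : x ∈ centralizer (Y : Set G) := by
  have hSC : S ≤ centralizer (Y : Set G) := le_centralizer_iff.1 hY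
  have h1 : IsSylowIn p S (normalizer (Y : Set G)) :=
    hS.mono (le_normalizer_of_le_centralizer hSC) le_top
  have hz : IsPGroup p (zpowers x) := isPGroup_iff_forall_mem.2 (by
    rintro _ ⟨n, rfl⟩
    obtain ⟨k, hk⟩ := hp
    exact ⟨k, by rw [← zpow_natCast, ← zpow_mul, mul_comm, zpow_mul, zpow_natCast, hk, one_zpow]⟩)
  obtain ⟨k, hk, hle⟩ := h1.exists_conj_le hz (zpowers_le.2 hx)
  have := inv_conj_mem_of_mem_normalizer (normalizer_le_normalizer_centralizer Y hk)
    (hSC (hle (conj_mem_conj_smul_iff.2 (mem_zpowers x))))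
  simpa [mul_assoc] using this

theorem exists_wcSub {S V T : Subgroup G} [V.Normal] (hS : IsSylowIn p S ⊤)
    (hT : T ≤ centralizer (S : Set G))
    (hN : normalizer (thompsonSubgroupAOf S : Set G) ≤ normalizer (T : Set G))
    (hV : IsPGroup p V) (hab : IsAb V) (hx : T ≤ V) {g₀ : G} (hg₀ : g₀ ∉ normalizer (T : Set G)) :
    ∃ (L W A : Subgroup G) (g : G), WCSub p L W A (MulAut.conj g • T) ∧ IsPGroup p W ∧
      Nat.card ((A ⊓ centralizer (W : Set G)) ⊔ W : Subgroup G) ≤ Nat.card A := by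
  have hcV : ∀ g : G, MulAut.conj g • T ≤ V := fun g => by
    rw [← conj_smul_eq_iff_mem_normalizer.2 (le_normalizer_of_normal (H := V) (mem_top g))]
    exact conj_smul_le_conj_smul_iff.2 hx
  obtain ⟨U, hU, hUJ, hmax⟩ := exists_twoFix'_max (p := p) (V := V) (T := T) ⟨hV, le_rfl, g₀, 1,
    by simpa [conj_smul_eq_iff_mem_normalizer] using hg₀, (hcV _).trans hab.le_centralizer,
    (hcV _).trans hab.le_centralizer⟩
  have hTg : ∀ g : G, MulAut.conj g • T ≤ centralizer ((MulAut.conj g • S : Subgroup G) : Set G) :=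
    fun g => by rw [← conj_smul_centralizer]; exact conj_smul_le_conj_smul_iff.2 hT
  have hSg : ∀ g : G, IsSylowIn p (MulAut.conj g • S) ⊤ := fun g =>
    hS.conj_smul_of_mem_normalizer (le_normalizer (mem_top g))
  have key : ∀ g : G, MulAut.conj g • T ≤ centralizer (U : Set G) → ∃ P A : Subgroup G,
      IsPGroup p P ∧ U ≤ P ∧ P ≤ normalizer (U : Set G) ∧ MaxAb P A ∧
      V ⊓ centralizer (U : Set G) ≤ normalizer (A : Set G) ∧
      MulAut.conj g • T ≤ centralizer (A : Set G) ∧ ∀ g' : G,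
        MulAut.conj g' • T ≤ centralizer (U : Set G) →
        MulAut.conj g' • T ≤ centralizer (A : Set G) → MulAut.conj g' • T = MulAut.conj g • T := by
    intro g hg
    obtain ⟨R, hR, hUR⟩ := exists_isSylowIn_ge hU.isPGroup (le_centralizer_iff.1 hg)
    have hR' : IsSylowIn p R ⊤ := (hSg g).of_card_le hR.isPGroup le_top (hR.card_le (hSg g).isPGroup
      (le_centralizer_iff.1 (hTg g)))
    set P := R ⊓ normalizer (U : Set G) with hP
    have hPp : IsPGroup p P := hR.isPGroup.to_le inf_le_left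
    have hUP : U ≤ P := le_inf hUR le_normalizer
    obtain ⟨A, hA, hAU, hn⟩ := exists_maxAb_not_le_normalized (B := V ⊓ centralizer (U : Set G))
      hPp (inf_le_left.trans (hU.le.trans hUP))
      (le_normalizer_inf le_normalizer_of_normal (le_normalizer_centralizer inf_le_right))
      (hab.mono inf_le_left) inf_le_right (not_thompson_normalizer_le' hS hR' hT hN hU hUJ hUR)
    have h2 : MulAut.conj g • T ≤ centralizer (A : Set G) :=
      le_centralizer_iff.1 (hA.le.trans (inf_le_left.trans hR.le))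
    refine ⟨P, A, hPp, hUP, inf_le_right, hA, hn, h2, fun g' h3 h4 => ?_⟩
    by_contra hne
    have hle : U ⊔ A ≤ P := sup_le hUP hA.le
    exact hAU ((hA.mono le_sup_right hle).le_thompson.trans (hmax _ ⟨hPp.to_le hle,
      hU.le.trans le_sup_left, g', g, hne, fun _ hy => mem_centralizer_sup_iff.2 ⟨h3 hy, h4 hy⟩,
      fun _ hy => mem_centralizer_sup_iff.2 ⟨hg hy, h2 hy⟩⟩ le_sup_left))
  obtain ⟨g, g', e1, e2, e3⟩ := hU.fix
  obtain ⟨P, A, hP, hUP, hPn, hA, hWA, hyA, huniq⟩ := key g e2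
  obtain ⟨P', A', hP', -, hPn', hA', -, -, huniq'⟩ := key g' e3
  set Y := MulAut.conj g • T with hY
  have hcent := fun x => mem_centralizer_of_isSylowIn_le (x := x) (hSg g) (hTg g)
  obtain ⟨L, ⟨hL1, hL2, hL3⟩, hLmin⟩ := (wellFounded_lt (α := Subgroup G)).has_min
    {L | A ≤ L ∧ L ≤ normalizer (U : Set G) ∧ ¬ L ≤ normalizer (Y : Set G)}
    ⟨normalizer (U : Set G), hA.le.trans hPn, le_rfl, fun h =>
      e1 (huniq' g e2 (le_centralizer_iff.1 fun a ha => hcent a (h (hPn' (hA'.le ha)))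
        (isPGroup_iff_forall_mem.1 hP' a (hA'.le ha))))⟩
  have hyU : ∀ l ∈ L, ∀ y ∈ Y, l * y * l⁻¹ ∈ centralizer (U : Set G) := fun l hl y hy =>
    conj_mem_of_mem_normalizer (le_normalizer_centralizer hL2 hl) (e2 hy)
  let W : Subgroup G := closure {z | ∃ l ∈ L, ∃ y ∈ Y, z = l * y * l⁻¹}
  have hW : W ≤ V ⊓ centralizer (U : Set G) := (closure_le _).2 (by
    rintro _ ⟨l, hl, y, hy, rfl⟩
    exact mem_inf.2 ⟨Normal.conj_mem inferInstance y (hcV g hy) l, hyU l hl y hy⟩)
  have hWab : IsAb W := hab.mono (hW.trans inf_le_left)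
  refine ⟨L, W, A, g, ⟨hWab, fun k hk => ?_, hL1, hA.isAb, hP.to_le hA.le, fun a ha w hw => ?_,
    fun y hy => subset_closure ⟨1, L.one_mem, y, hy, by simp⟩, hyA, hcent, fun l hl hc => ?_,
    fun K h1 h2 => ?_, hL3, fun D h1 h2 => (closure_le _).2 ?_⟩,
    hV.to_le (hW.trans inf_le_left), ?_⟩
  · exact mem_normalizer_of_finite ((isHomOn_conj ⊤ k).mapsTo_closure (fun _ _ => trivial) (by
      rintro _ ⟨k', hk', y, hy, rfl⟩
      exact subset_closure ⟨k * k', L.mul_mem hk hk', y, hy, by group⟩))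
  · exact hA.isAb.le_centralizer (commutator_mem_of_le_normalizer' hWA (hW hw) ha)
  · rw [← conj_smul_eq_iff_mem_normalizer]
    have hc' : MulAut.conj l • MulAut.conj g • T ≤ centralizer (U : Set G) := fun z hz => by
      have := hyU l hl _ (mem_conj_smul_iff.1 hz)
      simpa [mul_assoc] using this
    rw [conj_smul_conj_smul] at hc hc' ⊢
    exact huniq _ hc' hc
  · by_contra hn
    push Not at hn
    exact hLmin K ⟨h1, h2.trans hL2, hn.1⟩ (lt_of_le_of_ne h2 hn.2)
  · rintro _ ⟨l, hl, y, hy, rfl⟩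
    exact conj_mem_of_mem_normalizer (h2 hl) (h1 hy)
  · exact hA.max _ (sup_le (inf_le_left.trans hA.le)
      (hW.trans (inf_le_left.trans (hU.le.trans hUP))))
      ((hA.isAb.mono inf_le_left).sup hWab inf_le_right)

/-- Local form of the theorem. -/
theorem normal_or_hasTorus {S T : Subgroup G} (hS : IsSylowIn p S ⊤) (hp : p ≠ 2)
    (hT : T ≤ centralizer (S : Set G)) (hx : T ≤ pCore p G)
    (hN : normalizer (thompsonSubgroupAOf S : Set G) ≤ normalizer (T : Set G)) :
    (∀ g, g ∈ normalizer (T : Set G)) ∨ HasTorus T := by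
  refine or_iff_not_imp_left.2 fun hg => ?_
  obtain ⟨g₀, hg₀⟩ := not_forall.1 hg
  have hOS : pCore p G ≤ S :=
    hS.le_of_le_normalizer (pCore_isPGroup p G) le_top le_normalizer_of_normal
  obtain ⟨L, W, A, g, h, hW, hmax⟩ := exists_wcSub
    (V := pCore p G ⊓ centralizer (pCore p G : Set G)) hS hT hN
    ((pCore_isPGroup p G).to_le inf_le_left) (isAb_centralizerIn_self _)
    (le_inf hx (hT.trans (centralizer_le hOS))) hg₀
  exact HasTorus.of_conj (h.exists_torus hp hW hmax)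

end Group

section Abelian

variable {T : Type*} [Group T] [Finite T] {p : ℕ} [hp : Fact p.Prime]

theorem transitive_of_torus (hab : ∀ a b : T, a * b = b * a) (hT : IsPGroup p T) (hp2 : p ≠ 2)
    {ξ : MulAut T} (hξ : (Nat.card (zpowers ξ)).Coprime p) {C : Subgroup T}
    (h1 : ∀ c ∈ C, ξ c = c) (h2 : C ≠ ⊤)
    (h3 : ∀ u v, u ∉ C → v ∉ C → ∃ n : ℕ, v⁻¹ * (ξ ^ n) u ∈ C) :
    zpowers ξ ≠ ⊥ ∧ ∀ a b : T, a ∈ closure {y : T | ∃ ψ ∈ zpowers ξ, ∃ t : T, y = ψ t * t⁻¹} →
      b ∈ closure {y : T | ∃ ψ ∈ zpowers ξ, ∃ t : T, y = ψ t * t⁻¹} → a ≠ 1 → b ≠ 1 →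
      ∃ ψ ∈ zpowers ξ, ψ a = b := by
  classical
  let _ : CommGroup T := { (inferInstance : Group T) with mul_comm := hab }
  obtain ⟨m, hm⟩ := hT.exists_card_eq
  constructor
  · intro h
    obtain ⟨u, -, hu⟩ := SetLike.exists_of_lt (lt_top_iff_ne_top.2 h2)
    obtain ⟨n, hn⟩ := h3 u u⁻¹ hu (fun h => hu ((inv_mem_iff).1 h))
    rw [zpowers_eq_bot.1 h, one_pow, inv_inv, MulAut.one_apply] at hn
    obtain ⟨t, ht⟩ : Odd (p ^ m) := (hp.out.odd_of_ne_two hp2).pow
    have e : (u * u) ^ (t + 1) = u := by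
      rw [← pow_two, ← pow_mul, show 2 * (t + 1) = 2 * t + 1 + 1 from rfl, pow_succ, ← ht, ← hm,
        pow_card_eq_one', one_mul]
    exact hu (e ▸ pow_mem hn _)
  set X := zpowers ξ with hX
  set D := closure {y : T | ∃ ψ ∈ X, ∃ t : T, y = ψ t * t⁻¹} with hD
  have : Fintype X := Fintype.ofFinite X
  let N : T →* T := MonoidHom.mk' (fun t => ∏ ψ : X, (ψ : MulAut T) t) fun a b => by
    simp only [map_mul, Finset.prod_mul_distrib]
  have hN : ∀ ψ ∈ X, ∀ t, N (ψ t) = N t := fun ψ hψ t =>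
    Fintype.prod_equiv (Equiv.mulRight (⟨ψ, hψ⟩ : X)) _ _ fun _ => rfl
  have hDN : D ≤ N.ker := (closure_le _).2 (by
    rintro _ ⟨ψ, hψ, t, rfl⟩
    show N _ = 1
    rw [map_mul, map_inv, hN ψ hψ, mul_inv_cancel])
  have hfix : ∀ c ∈ C, ∀ ψ ∈ X, ψ c = c := fun c hc ψ hψ =>
    (zpowers_le.2 (show ξ ∈ MulAction.stabilizer (MulAut T) c from h1 c hc) : X ≤ _) hψ
  have hCD : ∀ c ∈ C, c ∈ D → c = 1 := fun c hc hd => by
    have e : c ^ Nat.card X = 1 := by
      have : N c = 1 := hDN hd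
      rw [← this, Nat.card_eq_fintype_card, ← Finset.card_univ, ← Finset.prod_const]
      exact Finset.prod_congr rfl fun ψ _ => (hfix c hc ψ ψ.2).symm
    have e' : c ^ p ^ m = 1 := by rw [← hm]; exact pow_card_eq_one'
    exact orderOf_eq_one_iff.1 (Nat.eq_one_of_dvd_coprimes (hξ.pow_right m)
      (orderOf_dvd_of_pow_eq_one e) (orderOf_dvd_of_pow_eq_one e'))
  intro a b ha hb ha1 hb1
  obtain ⟨n, hn⟩ := h3 a b (fun h => ha1 (hCD a h ha)) (fun h => hb1 (hCD b h hb))
  refine ⟨ξ ^ n, pow_mem (mem_zpowers ξ) n, (inv_mul_eq_one.1 (hCD _ hn (mul_mem (inv_mem hb) ?_))).symm⟩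
  have : (ξ ^ n) a * a⁻¹ ∈ D := subset_closure ⟨_, pow_mem (mem_zpowers ξ) n, a, rfl⟩
  simpa using mul_mem this ha

end Abelian

section Fusion

variable {Ω : Type u} [Group Ω] {S : Subgroup Ω} {p : ℕ} {F : FusionSystem S} [Finite S]
  [Fact p.Prime]

omit [Fact p.Prime] in
theorem locIn_normalizer_iff {T : Subgroup Ω} {E : FusionSystem S}
    (hE : F.IsKNormSys T ⊤ E) {Q : Subgroup Ω} (hx : T ≤ Q) :
    LocIn F E Q ↔ ∀ f, F.IsIso Q Q f → ∀ x ∈ T, f x ∈ T := by
  constructor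
  · intro h f hf
    exact ((hE.top_isMor_iff_of_le hx).1 (h _ _ (isNormMor_self hf))).2.2.mapsTo
  · rintro h P f ⟨hP, g, hg, e, hi⟩
    exact (hE.top_isMor_of_isIso hg (hx.trans le_sup_right) le_sup_left
      (hP.trans normalizerIn_le) ((hi.mor.mono hx).isIso_self (h g hi))).congr e

/-- The fusion-theoretic form. -/
theorem isNormal_or_torus (hF : F.IsSaturated p) (hS : IsPGroup p S) (hp : p ≠ 2)
    {T : Subgroup Ω} (hT : T ≤ centralizerIn S S)
    (hfix : ∀ f, F.IsIso (thompsonSubgroupAOf S) (thompsonSubgroupAOf S) f → ∀ x ∈ T, f x ∈ T) :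
    F.IsNormal T ∨ ∃ ξ ∈ F.autGroup T, ∃ C : Subgroup T, (∀ c ∈ C, ξ c = c) ∧ C ≠ ⊤ ∧
      ∀ u v, u ∉ C → v ∉ C → ∃ n : ℕ, v⁻¹ * (ξ ^ n) u ∈ C := by
  refine or_iff_not_imp_right.2 fun hno => ?_
  have hW := isNatural_jFun.{u} p
  have hTS : T ≤ S := hT.trans inf_le_left
  have hST : S ≤ centralizer (T : Set Ω) := le_centralizer_iff.1 (hT.trans inf_le_right)
  obtain ⟨E, hE⟩ := F.exists_isKNormSys_of_le (K := ⊤) hTS (le_normalizer_of_le_centralizer hST)
    le_top
  refine (hE.isNormal_iff hTS).2 ?_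
  refine normalizer_induction hF hS le_rfl (fun Q => T ≤ Q) (fun P hP => ?_) ?_ ?_
  · exact fun x hx => (hF.of_top_or_essential hS hP).2.1.centralizerIn_le
      (centralizerIn_anti (hF.of_top_or_essential hS hP).1.le (hT hx))
  · intro Q Q' φ hxQ _ hE' hi
    have h1 := ((hE.top_isMor_iff_of_le (hxQ.trans (le_normalizerIn hi.le_left))).1 hE').2.2
    rw [← h1.img_eq, ← hi.img_eq]
    exact img_mono φ hxQ
  · intro Q hxQ hQ ih
    have hR : IsPGroup p (normalizerIn S Q) := hS.to_le normalizerIn_le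
    have hxT : T ≤ normalizerIn S Q := hxQ.trans (le_normalizerIn hQ.le)
    have hxW : T ≤ wOf jFun (normalizerIn S Q) := fun x hx =>
      centralizerIn_le_wOf (fun Q _ _ _ => center_le_jFun Q) hR ⟨hxT hx, fun y hy => (hT hx).2 y hy.1⟩
    have h1 : ∀ f, F.IsIso (wOf jFun (normalizerIn S Q)) (wOf jFun (normalizerIn S Q)) f →
        ∀ x ∈ T, f x ∈ T := by
      rcases (normalizerIn_le (S := S) (P := Q)).eq_or_lt with e | hlt
      · rw [e]; exact hfix
      · refine (locIn_normalizer_iff hE hxW).1 (ih _ ((wOf_le _).trans normalizerIn_le) hxW ?_)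
        exact (card_lt_normalizerIn hS hlt).trans_le (Subgroup.card_le_of_le
          (inf_le_inf_left _ (normalizer_le_normalizer_wOf hW hR)))
    obtain ⟨G, _, _, j, hM⟩ := exists_localModel hF hS hQ
    have hj : IsHomOn T j := hM.hom.mono hxT
    have h2 := normal_or_hasTorus (T := img T j) (isSylowIn_of_sylowIn hM.syl) hp
      (img_le_iff.2 fun x hx y hy => by
        obtain ⟨z, hz, rfl⟩ := hM.hom.mem_img.1 hy
        rw [← hM.hom.map_mul hz (hxT hx), ← hM.hom.map_mul (hxT hx) hz, (hT hx).2 z hz.1])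
      ((img_mono j (hxQ.trans le_sup_left)).trans hM.le_pCore) fun g hg => by
        have hg' : g ∈ normalizer (wOf jFun (img (normalizerIn S Q) j) : Set G) := hg
        rw [← img_wOf hW hR hM.hom hM.inj] at hg'
        obtain ⟨f, hf, e⟩ := hM.exists_isIso (wOf_le _) hg'
        refine mem_normalizer_of_finite fun y hy => ?_
        obtain ⟨z, hz, rfl⟩ := hj.mem_img.1 hy
        rw [← e z (hxW hz)]
        exact mem_img_of_mem j (h1 f hf z hz)
    rcases h2 with h2 | ⟨g, hg, C, c1, c2, c3⟩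
    · refine (locIn_normalizer_iff hE hxQ).2 fun f hf x hx => ?_
      obtain ⟨g, e⟩ := hM.ofAut f hf
      obtain ⟨z, hz, e'⟩ := hj.mem_img.1 (conj_mem_of_mem_normalizer (h2 g) (mem_img_of_mem j hx))
      rwa [hM.inj _ (le_normalizerIn hQ.le (hf.mapsTo x (hxQ hx))) _ (hxT hz)
        ((e x (hxQ hx)).trans e'.symm)]
    · exfalso
      obtain ⟨f, hf, e⟩ := hM.exists_isIso hxT hg
      have e1 : ∀ x : T, j (hf.toMulEquiv x) = g * j x * g⁻¹ := fun x => e x x.2
      have e2 : ∀ n : ℕ, ∀ x : T, j ((hf.toMulEquiv ^ n : MulAut T) x) = g ^ n * j x * (g ^ n)⁻¹ := by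
        intro n
        induction n with
        | zero => intro x; simp
        | succ n ih => intro x; rw [pow_succ', MulAut.mul_apply, e1, ih]; group
      refine hno ⟨hf.toMulEquiv, hf.toMulEquiv_mem_autGroup, C.comap hj.toHom, fun c hc => ?_,
        fun h => c2 (img_le_iff.2 fun x hx => (h.ge (mem_top ⟨x, hx⟩) :)), fun u v hu hv => ?_⟩
      · exact Subtype.ext (hM.inj _ (hxT (hf.toMulEquiv c).2) _ (hxT c.2) ((e1 c).trans (c1 _ hc)))
      · obtain ⟨n, hn⟩ := c3 _ (mem_img_of_mem j u.2) _ (mem_img_of_mem j v.2) hu hv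
        refine ⟨n, ?_⟩
        rw [mem_comap, map_mul, map_inv]
        rw [← e2] at hn
        exact hn

end Fusion

end Cfsg.Agent.H1
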