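import Cfsg.Agent.Lib.H1.QuadLift

/-!
# Sharply transitive Jordan rings of endomorphisms are fields
-/

set_option autoImplicit false

namespace Cfsg.Agent.H1

open Polynomial

section Jordan

variable {R U : Type*} [Ring R] [AddCommGroup U] [Module R U]

/-- An additive group of operators closed under squaring and sharply transitive on the nonzero
vectors. -/
structure JDiv (K : AddSubgroup R) (U : Type*) [AddCommGroup U] [Module R U] : Prop where
  one_mem : (1 : R) ∈ K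
  sq_mem : ∀ x ∈ K, x * x ∈ K
  half : ∃ t : ℕ, ∀ u : U, t • (u + u) = u
  faithful : ∀ x : R, (∀ u : U, x • u = 0) → x = 0
  inj : ∀ x ∈ K, ∀ u : U, x • u = 0 → x = 0 ∨ u = 0
  surj : ∀ u : U, u ≠ 0 → ∀ v, ∃ x ∈ K, x • u = v

namespace JDiv

variable {K : AddSubgroup R} {x y : R}

theorem exists_half (h : JDiv K U) : ∃ t : ℕ, ∀ y : R, t • (y + y) = y := by
  obtain ⟨t, ht⟩ := h.half
  exact ⟨t, fun y => sub_eq_zero.1 (h.faithful _ fun u => by
    rw [sub_smul, smul_assoc, add_smul, ht, sub_self])⟩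

theorem eq_zero_of_add_self (h : JDiv K U) (e : y + y = 0) : y = 0 := by
  obtain ⟨t, ht⟩ := h.exists_half
  rw [← ht y, e, smul_zero]

theorem mem_of_add_self (h : JDiv K U) (e : y + y ∈ K) : y ∈ K := by
  obtain ⟨t, ht⟩ := h.exists_half
  rw [← ht y]
  exact K.nsmul_mem e t

theorem jordan_mem (h : JDiv K U) (hx : x ∈ K) (hy : y ∈ K) : x * y + y * x ∈ K := by
  have := K.sub_mem (K.sub_mem (h.sq_mem _ (K.add_mem hx hy)) (h.sq_mem _ hx)) (h.sq_mem _ hy)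
  convert this using 1
  noncomm_ring

theorem mul_mem_of_comm (h : JDiv K U) (hx : x ∈ K) (hy : y ∈ K) (e : x * y = y * x) :
    x * y ∈ K := h.mem_of_add_self (by simpa only [← e] using h.jordan_mem hx hy)

theorem cancel (h : JDiv K U) (hx : x ∈ K) (e : x * y = 0) : x = 0 ∨ y = 0 :=
  or_iff_not_imp_left.2 fun h0 => h.faithful _ fun u =>
    (h.inj x hx _ (by rw [← mul_smul, e, zero_smul])).resolve_left h0

theorem triple_mem (h : JDiv K U) (hx : x ∈ K) (hy : y ∈ K) : x * y * x ∈ K := by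
  refine h.mem_of_add_self ?_
  have := K.sub_mem (h.jordan_mem hx (h.jordan_mem hx hy)) (h.jordan_mem (h.sq_mem x hx) hy)
  convert this using 1
  noncomm_ring

theorem anticomm [Finite R] [Nontrivial R] (h : JDiv K U) {a b : R} (ha : a ∈ K) (hb : b ∈ K)
    (e : a * b + b * a = 0) : a = 0 ∨ b = 0 := by
  by_contra hn
  push Not at hn
  have e' : b * a = -(a * b) := eq_neg_of_add_eq_zero_right e
  let C := Subring.centralizer (Subring.centralizer ({a * a, b * b} : Set R) : Set R)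
  have haC : a ∈ Subring.centralizer ({a * a, b * b} : Set R) := by
    rintro _ (rfl | rfl)
    · exact mul_assoc _ _ _
    · rw [mul_assoc, e', mul_neg, ← mul_assoc, e', neg_mul, neg_neg, mul_assoc]
  have hbC : b ∈ Subring.centralizer ({a * a, b * b} : Set R) := by
    rintro _ (rfl | rfl)
    · rw [← mul_assoc b, e', neg_mul, mul_assoc a b, e', mul_neg, neg_neg, mul_assoc]
    · exact mul_assoc _ _ _
  have hCC : ∀ x ∈ C, x ∈ Subring.centralizer ({a * a, b * b} : Set R) := by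
    rintro x hx _ (rfl | rfl)
    exacts [hx _ (mul_mem haC haC), hx _ (mul_mem hbC hbC)]
  let k : Subring R :=
    { carrier := {x | x ∈ K ∧ x ∈ C}
      mul_mem' := fun hx hy => ⟨h.mul_mem_of_comm hx.1 hy.1 (hy.2 _ (hCC _ hx.2)),
        mul_mem hx.2 hy.2⟩
      one_mem' := ⟨h.one_mem, C.one_mem⟩
      add_mem' := fun hx hy => ⟨add_mem hx.1 hy.1, add_mem hx.2 hy.2⟩
      zero_mem' := ⟨zero_mem _, zero_mem _⟩
      neg_mem' := fun hx => ⟨neg_mem hx.1, neg_mem hx.2⟩ }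
  let _ : CommRing k := { (inferInstance : Ring k) with
    mul_comm := fun x y => Subtype.ext (y.2.2 _ (hCC _ x.2.2)) }
  have : NoZeroDivisors k := ⟨fun {x y} e => (h.cancel x.2.1 (congrArg Subtype.val e)).imp
    (fun e => Subtype.ext e) fun e => Subtype.ext e⟩
  have : IsDomain k := NoZeroDivisors.to_isDomain _
  cases nonempty_fintype k
  have hodd : Fintype.card k % 2 = 1 := by
    by_contra hc
    obtain ⟨z, hz⟩ := exists_prime_addOrderOf_dvd_card (G := k) 2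
      (Nat.dvd_of_mod_eq_zero (by omega))
    have h1 : z = 0 := Subtype.ext (h.eq_zero_of_add_self (by
      have := addOrderOf_nsmul_eq_zero z
      rw [hz, two_nsmul] at this
      exact congrArg Subtype.val this))
    rw [h1, addOrderOf_zero] at hz
    omega
  let s : k := ⟨a * a, h.sq_mem a ha, fun z hz => (hz _ (Or.inl rfl)).symm⟩
  let t : k := ⟨b * b, h.sq_mem b hb, fun z hz => (hz _ (Or.inr rfl)).symm⟩
  have hs : s ≠ 0 := fun e => hn.1 ((h.cancel ha (congrArg Subtype.val e)).elim id id)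
  have ht : t ≠ 0 := fun e => hn.2 ((h.cancel hb (congrArg Subtype.val e)).elim id id)
  obtain ⟨μ, ν, hμ⟩ := FiniteField.exists_root_sum_quadratic (f := Polynomial.C s * X ^ 2)
    (g := Polynomial.C t * X ^ 2 - Polynomial.C 1) (degree_C_mul_X_pow 2 hs) (by
      rw [degree_sub_C (by rw [degree_C_mul_X_pow 2 ht]; decide)]
      exact degree_C_mul_X_pow 2 ht) hodd
  have hμ' : a * a * (μ * μ) + (b * b * (ν * ν) - 1) = 0 := by
    have := congrArg Subtype.val hμ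
    simpa [pow_two] using this
  have c1 : a * μ = μ * a := μ.2.2 a haC
  have c2 : b * μ = μ * b := μ.2.2 b hbC
  have c3 : a * ν = ν * a := ν.2.2 a haC
  have c4 : b * ν = ν * b := ν.2.2 b hbC
  have c5 : (ν : R) * μ = μ * ν := μ.2.2 _ (hCC _ ν.2.2)
  have hw : a * μ + b * ν ∈ K :=
    add_mem (h.mul_mem_of_comm ha μ.2.1 c1) (h.mul_mem_of_comm hb ν.2.1 c4)
  have hw2 : (a * μ + b * ν - 1) * (a * μ + b * ν + 1) = 0 := by
    have e1 : a * μ * (a * μ) = a * a * (μ * μ) := by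
      rw [mul_assoc, ← mul_assoc (μ : R), ← c1]; simp only [mul_assoc]
    have e2 : b * ν * (b * ν) = b * b * (ν * ν) := by
      rw [mul_assoc, ← mul_assoc (ν : R), ← c4]; simp only [mul_assoc]
    have e3 : a * μ * (b * ν) + b * ν * (a * μ) = 0 := by
      rw [mul_assoc, ← mul_assoc (μ : R), ← c2, mul_assoc b (ν : R), ← mul_assoc (ν : R), ← c3,
        mul_assoc a (ν : R), c5, mul_assoc b, ← mul_assoc a, ← mul_assoc b a, ← add_mul, e,
        zero_mul]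
    rw [← hμ', ← e1, ← e2, ← add_zero (_ + (_ - 1)), ← e3]
    noncomm_ring
  have hc : ∀ z, (a * μ + b * ν) * z = z * (a * μ + b * ν) := fun z => by
    rcases h.cancel (sub_mem hw h.one_mem) hw2 with e | e
    · rw [sub_eq_zero.1 e, mul_one, one_mul]
    · rw [eq_neg_of_add_eq_zero_left e, mul_neg, neg_mul, mul_one, one_mul]
  have hν : (ν : R) = 0 := by
    have e1 := hc a
    rw [add_mul, mul_add, mul_assoc, ← c1, add_right_inj, mul_assoc, ← c3, ← mul_assoc, e',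
      ← mul_assoc, neg_mul, neg_eq_iff_add_eq_zero] at e1
    have e2 := h.eq_zero_of_add_self e1
    rw [mul_assoc] at e2
    exact ((h.cancel hb ((h.cancel ha e2).resolve_left hn.1)).resolve_left hn.2)
  have hμ0 : (μ : R) = 0 := by
    have e1 := hc b
    rw [hν, mul_zero, add_zero, mul_assoc, ← c2, ← mul_assoc, ← mul_assoc, e', neg_mul,
      eq_neg_iff_add_eq_zero] at e1
    have e2 := h.eq_zero_of_add_self e1
    rw [mul_assoc] at e2
    exact ((h.cancel hb ((h.cancel ha e2).resolve_left hn.1)).resolve_left hn.2)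
  simp [hν, hμ0] at hμ'

theorem mul_mem [Finite R] [Nontrivial R] (h : JDiv K U) (hx : x ∈ K) (hy : y ∈ K) :
    x * y ∈ K := by
  obtain ⟨d, hd⟩ : ∃ d, d = x * y - y * x := ⟨_, rfl⟩
  have hd2 : d * d ∈ K := by
    have := sub_mem (sub_mem (h.jordan_mem (h.triple_mem hx hy) hy)
      (h.triple_mem hx (h.sq_mem y hy))) (h.triple_mem hy (h.sq_mem x hx))
    convert this using 1
    rw [hd]; noncomm_ring
  have hdz : ∀ z ∈ K, d * z - z * d ∈ K := fun z hz => by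
    have := sub_mem (h.jordan_mem hx (h.jordan_mem hy hz)) (h.jordan_mem hy (h.jordan_mem hx hz))
    convert this using 1
    rw [hd]; noncomm_ring
  have k1 : ∀ z ∈ K, ∀ u : U, u ≠ 0 → d • u = z • u → (d + z) * (d - z) = 0 :=
    fun z hz u hu e => (h.inj _ (by
      have := sub_mem (sub_mem hd2 (h.sq_mem z hz)) (hdz z hz)
      convert this using 1
      noncomm_ring) u (by rw [mul_smul, sub_smul, e, sub_self, smul_zero])).resolve_right hu
  have k2 : ∀ z ∈ K, ∀ u : U, u ≠ 0 → d • u = z • u → d * d = z * z := fun z hz u hu e => by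
    by_contra hn
    have h1 := k1 z hz u hu e
    suffices d - z = 0 from hn (by rw [sub_eq_zero.1 this])
    refine h.faithful (d - z) fun v => ?_
    by_contra hv
    have h2 := k1 (-z) (neg_mem hz) _ hv (by
      rw [neg_smul, eq_neg_iff_add_eq_zero, ← add_smul, ← mul_smul, h1, zero_smul])
    refine hn (sub_eq_zero.1 (h.eq_zero_of_add_self ?_))
    calc _ = (d + z) * (d - z) + (d + -z) * (d - -z) := by noncomm_ring
      _ = 0 := by rw [h1, h2, add_zero]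
  have hdK : d ∈ K := by
    by_cases h0 : ∀ u : U, u = 0
    · rw [h.faithful d fun u => h0 _]; exact zero_mem _
    push Not at h0
    obtain ⟨u₀, hu₀⟩ := h0
    obtain ⟨z, hz, e⟩ := h.surj u₀ hu₀ (d • u₀)
    have k3 : ∀ u : U, (d - z) • u = 0 ∨ (d + z) • u = 0 := fun u => by
      by_cases hu : u = 0
      · left; rw [hu, smul_zero]
      obtain ⟨z', hz', e'⟩ := h.surj u hu (d • u)
      have e2 := (k2 z hz u₀ hu₀ e.symm).symm.trans (k2 z' hz' u hu e'.symm)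
      rcases h.anticomm (sub_mem hz hz') (add_mem hz hz') (by
        rw [← sub_self (z * z + z * z)]
        conv_rhs => arg 2; rw [e2]
        noncomm_ring) with e3 | e3
      · left; rw [sub_eq_zero.1 e3, sub_smul, e', sub_self]
      · right; rw [eq_neg_of_add_eq_zero_left e3, add_smul, neg_smul, e', add_neg_cancel]
    by_cases h1 : ∀ u : U, (d - z) • u = 0
    · rwa [sub_eq_zero.1 (h.faithful _ h1)]
    push Not at h1
    obtain ⟨u₁, hu₁⟩ := h1
    have h2 := (k3 u₁).resolve_left hu₁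
    rw [eq_neg_of_add_eq_zero_left (h.faithful (d + z) fun u => ?_)]
    · exact neg_mem hz
    by_contra hu
    have h3 := (k3 u).resolve_right hu
    rcases k3 (u + u₁) with e3 | e3
    · rw [smul_add, h3, zero_add] at e3
      exact hu₁ e3
    · rw [smul_add, h2, add_zero] at e3
      exact hu e3
  refine h.mem_of_add_self ?_
  have := add_mem (h.jordan_mem hx hy) hdK
  convert this using 1
  rw [hd]; noncomm_ring

theorem exists_generator [Finite R] [Nontrivial R] (h : JDiv K U) :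
    ∃ x ∈ K, x ≠ 0 ∧ ∀ u v : U, u ≠ 0 → v ≠ 0 → ∃ n : ℕ, x ^ n • u = v := by
  let k : Subring R := { K with
    mul_mem' := fun hx hy => h.mul_mem hx hy
    one_mem' := h.one_mem }
  have : NoZeroDivisors k := ⟨fun {x y} e => (h.cancel x.2 (congrArg Subtype.val e)).imp
    (fun e => Subtype.ext e) fun e => Subtype.ext e⟩
  have : IsDomain k := NoZeroDivisors.to_isDomain _
  let _ : Field k := (Finite.isDomain_to_isField k).toField
  obtain ⟨g, hg⟩ := IsCyclic.exists_monoid_generator (α := kˣ)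
  refine ⟨(g : k), (g : k).2, fun e => g.ne_zero (Subtype.ext e), fun u v hu hv => ?_⟩
  obtain ⟨x, hx, e⟩ := h.surj u hu v
  have hx0 : (⟨x, hx⟩ : k) ≠ 0 := fun e' => hv (by
    rw [← e, show x = 0 from congrArg Subtype.val e', zero_smul])
  obtain ⟨n, hn⟩ := hg (Units.mk0 _ hx0)
  refine ⟨n, ?_⟩
  rw [← e]
  congr 1
  exact congrArg Subtype.val (congrArg Units.val hn)

end JDiv

end Jordan

section RankOne

theorem map_inv_eq_of_mul_eq_one {Γ R : Type*} [Group Γ] [Monoid R] (σ : Γ →* R) {g : Γ} {y : R}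
    (h : σ g * y = 1) : σ g⁻¹ = y := by
  rw [← mul_one (σ g⁻¹), ← h, ← mul_assoc, ← map_mul, inv_mul_cancel, map_one, one_mul]

theorem ring_weyl {Γ R : Type*} [Group Γ] [Ring R] (σ : Γ →* R) {a b : Γ} {α β : R}
    (ha : σ a = 1 + α) (hb : σ b = 1 + β) (hα : α * α = 0) (hβ : β * β = 0)
    (h : α * β + β * α = 1) : σ (a * b⁻¹ * a) = α - β ∧ σ (a * b⁻¹ * a)⁻¹ = β - α := by
  have a3 : ∀ x, α * (α * x) = 0 := fun x => by rw [← mul_assoc, hα, zero_mul]
  have b1 : β * α = 1 - α * β := by rw [← h]; abel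
  have e : σ b⁻¹ = 1 - β :=
    map_inv_eq_of_mul_eq_one σ (by rw [hb, one_add_mul_one_sub, hβ, sub_zero])
  have w : σ (a * b⁻¹ * a) = α - β := by
    rw [map_mul, map_mul, ha, e]
    simp [mul_assoc, add_mul, mul_add, sub_mul, mul_sub, hα, b1, a3]
    abel
  refine ⟨w, map_inv_eq_of_mul_eq_one σ ?_⟩
  rw [w]
  simp [sub_mul, mul_sub, hα, hβ, b1]

theorem ring_torus {Γ R : Type*} [Group Γ] [Ring R] (σ : Γ →* R) {a b a₀ b₀ : Γ}
    {α β α₀ β₀ : R} (ha : σ a = 1 + α) (hb : σ b = 1 + β) (ha₀ : σ a₀ = 1 + α₀)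
    (hb₀ : σ b₀ = 1 + β₀) (h1 : α * α = 0) (h2 : α * α₀ = 0) (h3 : α₀ * α = 0) (h4 : α₀ * α₀ = 0)
    (k1 : β * β = 0) (k2 : β * β₀ = 0) (k3 : β₀ * β = 0) (k4 : β₀ * β₀ = 0)
    (h : α * β + β * α = 1) (h₀ : α₀ * β₀ + β₀ * α₀ = 1) :
    ∃ g, σ g = α * β₀ + β * α₀ ∧ σ (g * a₀ * g⁻¹) = 1 + α * β₀ * α := by
  obtain ⟨e1, e2⟩ := ring_weyl σ ha hb h1 k1 h
  obtain ⟨e3, e4⟩ := ring_weyl σ ha₀ hb₀ h4 k4 h₀
  have f1 : σ (a * b⁻¹ * a * (a₀ * b₀⁻¹ * a₀)⁻¹) = α * β₀ + β * α₀ := by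
    rw [map_mul, e1, e4]
    simp [sub_mul, mul_sub, h2, k2]
  have f2 : σ (a * b⁻¹ * a * (a₀ * b₀⁻¹ * a₀)⁻¹)⁻¹ = α₀ * β + β₀ * α := by
    rw [mul_inv_rev, inv_inv, map_mul, e3, e2]
    simp [sub_mul, mul_sub, h3, k3]
  refine ⟨_, f1, ?_⟩
  have f3 : σ (a * b⁻¹ * a * (a₀ * b₀⁻¹ * a₀)⁻¹) * σ (a * b⁻¹ * a * (a₀ * b₀⁻¹ * a₀)⁻¹)⁻¹ = 1 := by
    rw [← map_mul, mul_inv_cancel, map_one]
  have a3 : ∀ x, α₀ * (α₀ * x) = 0 := fun x => by rw [← mul_assoc, h4, zero_mul]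
  have a4 : β₀ * (α₀ * (β₀ * α)) = β₀ * α := by
    have := congrArg (β₀ * · * (β₀ * α)) (show (1 : R) = 1 from rfl)
    calc β₀ * (α₀ * (β₀ * α)) = β₀ * ((α₀ * β₀ + β₀ * α₀) * α) := by
          rw [add_mul, mul_assoc β₀ α₀ α, h3, mul_zero, add_zero, mul_assoc]
      _ = _ := by rw [h₀, one_mul]
  rw [map_mul, map_mul, ha₀, mul_add, mul_one, add_mul, f3, f1, f2]
  simp [mul_assoc, add_mul, mul_add, a3, a4]

variable {Γ M : Type*} [Group Γ] [AddCommGroup M]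

/-- A group acting on a module like `SL₂(q)` on its natural module. -/
structure Rank1 (σ : Γ →* AddMonoid.End M) (A N : Subgroup Γ) (U : AddSubgroup M) : Prop where
  AN : A ≤ N
  quad : ∀ a ∈ A, ∀ m, σ a m - m ∈ U
  fix : ∀ a ∈ A, ∀ u ∈ U, σ a u = u
  disj : ∀ l ∉ N, ∀ u ∈ U, σ l u ∈ U → u = 0
  span : ∀ l ∉ N, ∀ m, ∃ c ∈ U, ∃ d ∈ U, m = c + σ l d
  surj : ∀ l ∉ N, ∀ d ∈ U, d ≠ 0 → ∀ c ∈ U, ∃ a ∈ A, σ a (σ l d) - σ l d = c
  inj : ∀ l ∉ N, ∀ d ∈ U, d ≠ 0 → ∀ a ∈ A, σ a (σ l d) = σ l d → σ a = 1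
  neN : ∃ l, l ∉ N
  neU : ∃ u ∈ U, u ≠ 0
  half : ∃ t : ℕ, ∀ m : M, t • (m + m) = m

theorem end_map_mul_apply (σ : Γ →* AddMonoid.End M) (g g' : Γ) (m : M) :
    σ (g * g') m = σ g (σ g' m) := by rw [map_mul]; rfl

theorem end_inv_apply (σ : Γ →* AddMonoid.End M) (g : Γ) (m : M) : σ g⁻¹ (σ g m) = m := by
  rw [← end_map_mul_apply, inv_mul_cancel, map_one]; rfl

theorem end_apply_inv (σ : Γ →* AddMonoid.End M) (g : Γ) (m : M) : σ g (σ g⁻¹ m) = m := by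
  rw [← end_map_mul_apply, mul_inv_cancel, map_one]; rfl

namespace Rank1

variable {σ : Γ →* AddMonoid.End M} {A N : Subgroup Γ} {U : AddSubgroup M} {k l a : Γ}

theorem mem_of_eq (h : Rank1 σ A N U) {l' : Γ} {d d' : M} (hd : d ∈ U) (hd' : d' ∈ U)
    (h0 : d ≠ 0) (e : σ l d = σ l' d') : l'⁻¹ * l ∈ N := by
  by_contra hn
  exact h0 (h.disj _ hn d hd (by rwa [end_map_mul_apply, e, end_inv_apply]))

theorem map_mem (h : Rank1 σ A N U) (hl : l ∈ N) {u : M} (hu : u ∈ U) : σ l u ∈ U := by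
  obtain ⟨k, hk⟩ := h.neN
  obtain ⟨c, hc, d, hd, e⟩ := h.span k hk (σ l u)
  by_cases h0 : d = 0
  · rwa [e, h0, map_zero, add_zero]
  obtain ⟨a, ha, e'⟩ := h.surj k hk d hd h0 c hc
  have := h.mem_of_eq (l := a * k) (l' := l) hd hu h0 (by
    rw [end_map_mul_apply, e, ← e', sub_add_cancel])
  exact absurd ((N.mul_mem_cancel_left (h.AN ha)).1
    ((N.mul_mem_cancel_left (N.inv_mem hl)).1 this)) hk

theorem unique (h : Rank1 σ A N U) (hk : k ∉ N) {c c' d d' : M} (hc : c ∈ U) (hc' : c' ∈ U)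
    (hd : d ∈ U) (hd' : d' ∈ U) (e : c + σ k d = c' + σ k d') : c = c' ∧ d = d' := by
  have : d = d' := sub_eq_zero.1 (h.disj k hk _ (sub_mem hd hd') (by
    rw [map_sub, show σ k d - σ k d' = c' - c by rw [sub_eq_sub_iff_add_eq_add, add_comm, e, add_comm]]
    exact sub_mem hc' hc))
  exact ⟨by rwa [this, add_left_inj] at e, this⟩

theorem ext (h : Rank1 σ A N U) (hk : k ∉ N) {x y : AddMonoid.End M} (h1 : ∀ u ∈ U, x u = y u)
    (h2 : ∀ d ∈ U, x (σ k d) = y (σ k d)) : x = y := AddMonoidHom.ext fun m => by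
  obtain ⟨c, hc, d, hd, rfl⟩ := h.span k hk m
  exact (map_add x _ _).trans ((congrArg₂ (· + ·) (h1 c hc) (h2 d hd)).trans (map_add y _ _).symm)

theorem exists_eq (h : Rank1 σ A N U) (hk : k ∉ N) {g : Γ} (hg : ∀ m, σ g m - m ∈ U) :
    ∃ a ∈ A, ∀ d ∈ U, σ g (σ k d) = σ a (σ k d) := by
  obtain ⟨d₀, hd₀, h0⟩ := h.neU
  obtain ⟨a, ha, e⟩ := h.surj k hk d₀ hd₀ h0 _ (hg (σ k d₀))
  have hn := h.mem_of_eq (l := g * k) (l' := a * k) hd₀ hd₀ h0 (by
    rw [end_map_mul_apply, end_map_mul_apply, sub_left_inj.1 e])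
  refine ⟨a, ha, fun d hd => ?_⟩
  have hd' := h.map_mem hn hd
  have e1 : σ g (σ k d) = σ a (σ k (σ ((a * k)⁻¹ * (g * k)) d)) := by
    rw [← end_map_mul_apply σ a, ← end_map_mul_apply σ (a * k), mul_inv_cancel_left,
      end_map_mul_apply]
  rw [e1, ← (h.unique hk (hg _) (h.quad a ha _) hd hd' (by
    rw [sub_add_cancel, sub_add_cancel]; exact e1)).2]

theorem mul_eq_zero (h : Rank1 σ A N U) (ha : a ∈ A) {a' : Γ} (ha' : a' ∈ A) :
    (σ a - 1) * (σ a' - 1) = 0 :=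
  AddMonoidHom.ext fun m => sub_eq_zero.2 (h.fix a ha _ (h.quad a' ha' m))

theorem mul_eq_zero' (h : Rank1 σ A N U) (ha : a ∈ A) {a' : Γ} (ha' : a' ∈ A) :
    (σ (k * a * k⁻¹) - 1) * (σ (k * a' * k⁻¹) - 1) = 0 := AddMonoidHom.ext fun m => by
  show σ (k * a * k⁻¹) (σ (k * a' * k⁻¹) m - m) - (σ (k * a' * k⁻¹) m - m) = 0
  have e : σ (k * a' * k⁻¹) m - m = σ k (σ a' (σ k⁻¹ m) - σ k⁻¹ m) := by
    rw [map_sub, end_apply_inv, end_map_mul_apply, end_map_mul_apply]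
  rw [e, end_map_mul_apply, end_inv_apply, end_map_mul_apply, h.fix a ha _ (h.quad a' ha' _),
    sub_self]

theorem exists_inv (h : Rank1 σ A N U) (hk : k ∉ N) (ha : a ∈ A) (h1 : σ a ≠ 1) :
    ∃ a' ∈ A, (σ a - 1) * (σ (k * a' * k⁻¹) - 1) + (σ (k * a' * k⁻¹) - 1) * (σ a - 1) = 1 := by
  obtain ⟨d₀, hd₀, h0⟩ := h.neU
  have hu₀ := h.quad a ha (σ k d₀)
  have hu₀' : σ a (σ k d₀) - σ k d₀ ≠ 0 := fun e => h1 (h.inj k hk d₀ hd₀ h0 a ha (sub_eq_zero.1 e))
  obtain ⟨a', ha', e⟩ := h.surj k⁻¹ (fun e => hk (N.inv_mem_iff.1 e)) _ hu₀ hu₀' d₀ hd₀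
  have hb : ∀ m, σ (k * a' * k⁻¹) m = m + σ k (σ a' (σ k⁻¹ m) - σ k⁻¹ m) := fun m => by
    rw [map_sub, end_apply_inv, end_map_mul_apply, end_map_mul_apply, add_sub_cancel]
  have hn := h.mem_of_eq (l := a * k) (l' := k * a' * k⁻¹) hd₀ hu₀ h0 (by
    rw [hb, e, end_map_mul_apply, sub_add_cancel])
  refine ⟨a', ha', h.ext hk (fun u hu => ?_) fun d hd => ?_⟩
  · show σ a (σ (k * a' * k⁻¹) u - u) - (σ (k * a' * k⁻¹) u - u) +
      (σ (k * a' * k⁻¹) (σ a u - u) - (σ a u - u)) = u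
    have hd := h.map_mem (N.inv_mem hn) hu
    have e1 : σ (k * a' * k⁻¹) u = σ a (σ k (σ ((k * a' * k⁻¹)⁻¹ * (a * k))⁻¹ u)) := by
      rw [← end_map_mul_apply σ a, ← end_map_mul_apply σ (a * k), mul_inv_rev, inv_inv,
        mul_inv_cancel_left]
    obtain ⟨e2, e3⟩ := h.unique hk hu (h.quad a ha _) (h.quad a' ha' _) hd (by
      rw [← hb, sub_add_cancel]; exact e1)
    rw [h.fix a ha u hu, sub_self, map_zero, sub_self, add_zero, hb, add_sub_cancel_left, e3,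
      ← e2]
  · show σ a (σ (k * a' * k⁻¹) (σ k d) - σ k d) - (σ (k * a' * k⁻¹) (σ k d) - σ k d) +
      (σ (k * a' * k⁻¹) (σ a (σ k d) - σ k d) - (σ a (σ k d) - σ k d)) = σ k d
    have hu := h.map_mem hn hd
    have e1 : σ (k * a' * k⁻¹) (σ ((k * a' * k⁻¹)⁻¹ * (a * k)) d) = σ a (σ k d) := by
      rw [← end_map_mul_apply, mul_inv_cancel_left, end_map_mul_apply]
    obtain ⟨e2, e3⟩ := h.unique hk hu (h.quad a ha _) (h.quad a' ha' _) hd (by
      rw [← hb, sub_add_cancel]; exact e1)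
    rw [hb (σ k d), end_inv_apply, h.fix a' ha' d hd, sub_self, map_zero, add_zero, sub_self,
      map_zero, sub_self, zero_add, ← e2, hb, add_sub_cancel_left, e3]

theorem exists_torus [Finite M] (h : Rank1 σ A N U) :
    ∃ g ∈ N, ∀ u ∈ U, ∀ v ∈ U, u ≠ 0 → v ≠ 0 → ∃ n : ℕ, σ (g ^ n) u = v := by
  obtain ⟨k, hk⟩ := h.neN
  obtain ⟨d₀, hd₀, h0⟩ := h.neU
  obtain ⟨a₀, ha₀, e₀⟩ := h.surj k hk d₀ hd₀ h0 d₀ hd₀
  obtain ⟨a₁, ha₁, e₁⟩ := h.exists_inv hk ha₀ fun e => h0 (by rw [← e₀, e]; exact sub_self _)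
  set β₀ := σ (k * a₁ * k⁻¹) - 1 with hβ₀
  have hβ : ∀ u, β₀ u = σ k (σ a₁ (σ k⁻¹ u) - σ k⁻¹ u) := fun u => by
    rw [map_sub, end_apply_inv, ← end_map_mul_apply σ k, ← end_map_mul_apply]; rfl
  have hαβ : ∀ u ∈ U, σ a₀ (β₀ u) - β₀ u = u := fun u hu => by
    have : σ a₀ (β₀ u) - β₀ u + β₀ (σ a₀ u - u) = u := DFunLike.congr_fun e₁ u
    rwa [h.fix a₀ ha₀ u hu, sub_self, map_zero, add_zero] at this
  have hβ0 : ∀ u ∈ U, u ≠ 0 → σ a₁ (σ k⁻¹ u) - σ k⁻¹ u ≠ 0 := fun u hu hu0 e => hu0 (by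
    rw [← hαβ u hu, hβ, e, map_zero, map_zero, sub_self])
  let K : AddSubgroup (AddMonoid.End U) :=
    { carrier := {x | ∃ a ∈ A, ∀ u : U, (x u : M) = σ a (β₀ u) - β₀ u}
      zero_mem' := ⟨1, A.one_mem, fun u => by rw [map_one]; exact (sub_self _).symm⟩
      add_mem' := by
        rintro x y ⟨a, ha, e⟩ ⟨b, hb, e'⟩
        refine ⟨a * b, A.mul_mem ha hb, fun u => ?_⟩
        show (x u : M) + y u = _
        rw [e, e', end_map_mul_apply, ← h.fix a ha _ (h.quad b hb (β₀ u)), map_sub]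
        abel
      neg_mem' := by
        rintro x ⟨a, ha, e⟩
        refine ⟨a⁻¹, A.inv_mem ha, fun u => ?_⟩
        show -(x u : M) = _
        rw [e, ← h.fix a⁻¹ (A.inv_mem ha) _ (h.quad a ha (β₀ u)), map_sub, end_inv_apply]
        abel }
  have hK : ∀ a ∈ A, ∃ x ∈ K, ∀ u : U, (x u : M) = σ a (β₀ u) - β₀ u := fun a ha =>
    ⟨(((σ a - 1) * β₀ : AddMonoid.End M).comp U.subtype).codRestrict U fun u => h.quad a ha _,
      ⟨a, ha, fun _ => rfl⟩, fun _ => rfl⟩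
  have key : ∀ a ∈ A, σ a ≠ 1 → ∃ g, (∀ u ∈ U, σ g u = σ a (β₀ u) - β₀ u) ∧
      σ (g * a₀ * g⁻¹) = 1 + (σ a - 1) * β₀ * (σ a - 1) := fun a ha h1 => by
    obtain ⟨a', ha', e⟩ := h.exists_inv hk ha h1
    obtain ⟨g, hg, hg'⟩ := ring_torus σ (add_sub_cancel 1 _).symm (add_sub_cancel 1 _).symm
      (add_sub_cancel 1 _).symm (add_sub_cancel 1 _).symm (h.mul_eq_zero ha ha)
      (h.mul_eq_zero ha ha₀) (h.mul_eq_zero ha₀ ha) (h.mul_eq_zero ha₀ ha₀)
      (h.mul_eq_zero' ha' ha') (h.mul_eq_zero' ha' ha₁) (h.mul_eq_zero' ha₁ ha')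
      (h.mul_eq_zero' ha₁ ha₁) e e₁
    refine ⟨g, fun u hu => ?_, hg'⟩
    have : σ g u = σ a (β₀ u) - β₀ u + (σ (k * a' * k⁻¹) - 1) (σ a₀ u - u) :=
      DFunLike.congr_fun hg u
    rwa [h.fix a₀ ha₀ u hu, sub_self, map_zero, add_zero] at this
  have hz : ∀ x : AddMonoid.End U, ∀ a, σ a = 1 → (∀ u : U, (x u : M) = σ a (β₀ u) - β₀ u) →
      x = 0 := fun x a h1 e => AddMonoidHom.ext fun u => Subtype.ext (by
    refine (e u).trans ?_
    rw [h1]; exact sub_self _)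
  suffices hJ : JDiv K U by
    have : Finite (AddMonoid.End U) := Finite.of_injective _ DFunLike.coe_injective
    have : Nontrivial (AddMonoid.End U) :=
      ⟨1, 0, fun e => h0 (congrArg Subtype.val (DFunLike.congr_fun e (⟨d₀, hd₀⟩ : U)))⟩
    obtain ⟨x, ⟨a, ha, e⟩, hx0, hx⟩ := hJ.exists_generator
    obtain ⟨g, hg, -⟩ := key a ha fun h1 => hx0 (hz x a h1 e)
    have hgn : ∀ (n : ℕ) (u : U), σ (g ^ n) u = (x ^ n • u : U) := by
      intro n
      induction n with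
      | zero =>
        intro u
        rw [pow_zero, map_one, pow_zero, one_smul]; rfl
      | succ n ih =>
        intro u
        rw [pow_succ, end_map_mul_apply, hg u u.2, ← e, ih, pow_succ, mul_smul]; rfl
    refine ⟨g, ?_, fun u hu v hv hu0 hv0 => ?_⟩
    · by_contra hn
      exact h0 (h.disj g hn d₀ hd₀ (by rw [hg d₀ hd₀]; exact h.quad a ha _))
    · obtain ⟨n, hn⟩ := hx ⟨u, hu⟩ ⟨v, hv⟩ (fun e => hu0 (congrArg Subtype.val e))
        fun e => hv0 (congrArg Subtype.val e)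
      exact ⟨n, (hgn n ⟨u, hu⟩).trans (congrArg Subtype.val hn)⟩
  refine ⟨⟨a₀, ha₀, fun u => (hαβ u u.2).symm⟩, ?_, ?_, fun x hx => AddMonoidHom.ext hx, ?_, ?_⟩
  · rintro x ⟨a, ha, e⟩
    by_cases h1 : σ a = 1
    · rw [hz x a h1 e, mul_zero]; exact zero_mem _
    obtain ⟨g, -, hg⟩ := key a ha h1
    have hg' : ∀ m, σ (g * a₀ * g⁻¹) m - m = σ a (β₀ (σ a m - m)) - β₀ (σ a m - m) := fun m => by
      rw [hg]; exact add_sub_cancel_left _ _
    obtain ⟨a', ha', e'⟩ := h.exists_eq hk (g := g * a₀ * g⁻¹) fun m => hg' m ▸ h.quad a ha _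
    refine ⟨a', ha', fun u => ?_⟩
    show (x (x u) : M) = _
    rw [e, e, ← hg', hβ, e' _ (h.quad a₁ ha₁ _)]
  · obtain ⟨t, ht⟩ := h.half
    exact ⟨t, fun u => Subtype.ext (ht u)⟩
  · rintro x ⟨a, ha, e⟩ u hu
    refine or_iff_not_imp_right.2 fun hu0 => hz x a ?_ e
    have := (e u).symm.trans (congrArg Subtype.val hu)
    rw [hβ] at this
    exact h.inj k hk _ (h.quad a₁ ha₁ _) (hβ0 u u.2 fun e => hu0 (Subtype.ext e)) a ha
      (sub_eq_zero.1 this)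
  · intro u hu v
    obtain ⟨a, ha, e⟩ := h.surj k hk _ (h.quad a₁ ha₁ (σ k⁻¹ u))
      (hβ0 u u.2 fun e => hu (Subtype.ext e)) v v.2
    obtain ⟨x, hx, e'⟩ := hK a ha
    exact ⟨x, hx, Subtype.ext ((e' u).trans (by rw [hβ, e]))⟩

end Rank1

end RankOne

end Cfsg.Agent.H1
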