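import Cfsg.Agent.Lib.H1.WeakClosure2
import Cfsg.Agent.Lib.H1.Jordan

/-!
# Weak closure of central subgroups (Glauberman, Flavell)
-/

set_option autoImplicit false

universe u

namespace Cfsg.Agent.H1

open Subgroup Cfsg.FusionSystem
open scoped Pointwise commutatorElement

section Group

variable {G : Type u} [Group G] {p : ℕ}

theorem conj_smul_le_conj_smul_iff {A B : Subgroup G} {l : G} :
    MulAut.conj l • A ≤ MulAut.conj l • B ↔ A ≤ B := pointwise_smul_le_pointwise_smul_iff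

theorem le_centralizer_conj_smul_iff {A Y : Subgroup G} {l : G} :
    Y ≤ centralizer ((MulAut.conj l • A : Subgroup G) : Set G) ↔
      MulAut.conj l⁻¹ • Y ≤ centralizer (A : Set G) := by
  rw [← conj_smul_centralizer, ← conj_smul_le_conj_smul_iff (l := l⁻¹), conj_smul_conj_smul,
    inv_mul_cancel, map_one, one_smul]

theorem mem_normalizer_conj_smul_iff {Y : Subgroup G} {l x : G} :
    x ∈ normalizer ((MulAut.conj l • Y : Subgroup G) : Set G) ↔
      l⁻¹ * x * l ∈ normalizer (Y : Set G) := by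
  rw [← conj_smul_normalizer, mem_conj_smul_iff]

theorem exists_quot_action {L W C : Subgroup G} (hab : IsAb W) (hLW : L ≤ normalizer (W : Set G))
    (hLC : L ≤ normalizer (C : Set G)) :
    ∃ (V : Type u) (_ : CommGroup V) (π : G → V) (τ : L →* MulAut V), IsHomOn W π ∧
      (∀ v, ∃ w ∈ W, π w = v) ∧ (∀ w ∈ W, π w = 1 ↔ w ∈ C) ∧
      ∀ l : L, ∀ w ∈ W, π (l * w * (l : G)⁻¹) = τ l (π w) := by
  let _ : CommGroup W := { (inferInstance : Group W) with
    mul_comm := fun a b => Subtype.ext (hab a a.2 b b.2) }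
  let ρ : L →* MulAut W := W.normalizerMonoidHom.comp (inclusion hLW)
  have hρ : ∀ (l : L) (w : W), (ρ l w : G) = l * w * (l : G)⁻¹ := fun _ _ => rfl
  have hC : ∀ l, ∀ w ∈ C.subgroupOf W, ρ l w ∈ C.subgroupOf W := fun l w hw =>
    conj_mem_of_mem_normalizer (hLC l.2) hw
  refine ⟨W ⧸ C.subgroupOf W, inferInstance, homFun (QuotientGroup.mk' (C.subgroupOf W)),
    H9.quotHom ρ _ hC, isHomOn_homFun _, fun v => ?_, fun w hw => ?_, fun l w hw => ?_⟩
  · obtain ⟨w, rfl⟩ := QuotientGroup.mk_surjective v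
    exact ⟨w, w.2, homFun_coe _ w⟩
  · rw [homFun_of_mem _ hw]
    exact QuotientGroup.eq_one_iff _
  · rw [homFun_of_mem _ hw, homFun_of_mem _ (conj_mem_of_mem_normalizer (hLW l.2) hw)]
    rfl

/-- The configuration studied in the proof. -/
structure WCSub (p : ℕ) (L W A Y : Subgroup G) : Prop where
  abW : IsAb W
  LW : L ≤ normalizer (W : Set G)
  AL : A ≤ L
  abA : IsAb A
  pA : IsPGroup p A
  quad : ∀ a ∈ A, ∀ w ∈ W, ⁅a, w⁆ ∈ centralizer (A : Set G)
  YW : Y ≤ W
  YA : Y ≤ centralizer (A : Set G)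
  cent : ∀ x ∈ normalizer (Y : Set G), (∃ k, x ^ p ^ k = 1) → x ∈ centralizer (Y : Set G)
  uniq : ∀ l ∈ L, MulAut.conj l • Y ≤ centralizer (A : Set G) → l ∈ normalizer (Y : Set G)
  min : ∀ K : Subgroup G, A ≤ K → K ≤ L → K ≤ normalizer (Y : Set G) ∨ K = L
  ne : ¬ L ≤ normalizer (Y : Set G)
  gen : ∀ D : Subgroup G, Y ≤ D → L ≤ normalizer (D : Set G) → W ≤ D

namespace WCSub

variable {L W A Y : Subgroup G}

theorem conj (h : WCSub p L W A Y) {l : G} (hl : l ∈ L) :
    WCSub p L W (MulAut.conj l • A) (MulAut.conj l • Y) where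
  abW := h.abW
  LW := h.LW
  AL := conj_smul_le_of_mem h.AL hl
  abA := h.abA.conj_smul l
  pA := h.pA.map _
  quad a ha w hw := by
    rw [mem_centralizer_conj_smul_iff]
    have := h.quad _ (mem_conj_smul_iff.1 ha) _ (inv_conj_mem_of_mem_normalizer (h.LW hl) hw)
    convert this using 1
    simp only [commutatorElement_def]; group
  YW := by
    rw [← conj_smul_eq_iff_mem_normalizer.2 (h.LW hl)]
    exact conj_smul_le_conj_smul_iff.2 h.YW
  YA := by
    rw [← conj_smul_centralizer]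
    exact conj_smul_le_conj_smul_iff.2 h.YA
  cent x hx := by
    rintro ⟨k, hk⟩
    rw [mem_centralizer_conj_smul_iff]
    refine h.cent _ (mem_normalizer_conj_smul_iff.1 hx) ⟨k, ?_⟩
    have := conj_pow (i := p ^ k) (a := l⁻¹) (b := x)
    rw [inv_inv] at this
    rw [this, hk, mul_one, inv_mul_cancel]
  uniq k hk hc := by
    rw [le_centralizer_conj_smul_iff, conj_smul_conj_smul, conj_smul_conj_smul] at hc
    exact mem_normalizer_conj_smul_iff.2
      (h.uniq _ (L.mul_mem (L.mul_mem (L.inv_mem hl) hk) hl) hc)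
  min K h1 h2 := by
    rcases h.min (MulAut.conj l⁻¹ • K) (fun a ha => mem_conj_smul_iff.2
      (h1 (by rw [inv_inv]; exact conj_mem_conj_smul_iff.2 ha)))
      (conj_smul_le_of_mem h2 (L.inv_mem hl)) with h3 | h3
    · refine Or.inl fun x hx => mem_normalizer_conj_smul_iff.2 (h3 ?_)
      simpa using (conj_mem_conj_smul_iff (g := l⁻¹)).2 hx
    · right
      refine le_antisymm h2 fun x hx => ?_
      have : l⁻¹ * x * l⁻¹⁻¹ ∈ MulAut.conj l⁻¹ • K :=
        h3.ge (L.mul_mem (L.mul_mem (L.inv_mem hl) hx) (L.inv_mem (L.inv_mem hl)))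
      exact conj_mem_conj_smul_iff.1 this
  ne hc := h.ne fun x hx => by
    have := mem_normalizer_conj_smul_iff.1 (hc (L.mul_mem (L.mul_mem hl hx) (L.inv_mem hl)))
    simpa [mul_assoc] using this
  gen D h1 h2 := h.gen D (fun y hy => by
    have := inv_conj_mem_of_mem_normalizer (h2 hl) (h1 (conj_mem_conj_smul_iff.2 hy))
    simpa [mul_assoc] using this) h2

theorem commutator_mem (h : WCSub p L W A Y) {l w : G} (hl : l ∈ L) (hw : w ∈ W) : ⁅l, w⁆ ∈ W :=
  commutator_mem_of_le_normalizer h.LW hl hw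

theorem fix_of_le (h : WCSub p L W A Y) {l : G} (hl : l ∈ L)
    (hc : MulAut.conj l • A ≤ normalizer (Y : Set G)) : l ∈ normalizer (Y : Set G) := by
  refine (inv_mem_iff (H := normalizer (Y : Set G))).1 (h.uniq l⁻¹ (L.inv_mem hl) ?_)
  rw [← le_centralizer_conj_smul_iff, le_centralizer_iff]
  exact fun a ha => h.cent a (hc ha) (isPGroup_iff_forall_mem.1 (h.conj hl).pA a ha)

theorem fix_of_commutator (h : WCSub p L W A Y) {w l : G} (hwA : w ∈ centralizer (A : Set G))
    (hw : w ∉ centralizer (L : Set G)) (hl : l ∈ L) (hc : ⁅l, w⁆ ∈ centralizer (L : Set G)) :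
    l ∈ normalizer (Y : Set G) := by
  have h1 : A ≤ WCSetup.modStab L w := fun a ha => ⟨h.AL ha, by
    rw [commutatorElement_eq_one_iff_mul_comm.2 (hwA a ha)]; exact one_mem _⟩
  rcases h.min _ h1 (fun _ hx => hx.1) with h2 | h2
  · exact h2 ⟨hl, hc⟩
  exfalso
  have h3 : A ≤ L ⊓ centralizer (zpowers w : Set G) :=
    le_inf h.AL (zpowers_le_centralizer_iff.2 hwA)
  rcases h.min _ h3 inf_le_left with h4 | h4
  · refine h.ne fun k hk => h.fix_of_le hk (le_trans ?_ h4)
    refine le_inf (conj_smul_le_of_mem h.AL hk) (zpowers_le_centralizer_iff.2 ?_)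
    rw [mem_centralizer_conj_smul_iff]
    have e : k⁻¹ * w * k = ⁅k⁻¹, w⁆ * w := by simp only [commutatorElement_def]; group
    rw [e]
    exact mul_mem (centralizer_le h.AL (h2.ge (L.inv_mem hk)).2) hwA
  · exact hw (zpowers_le_centralizer_iff.1 (h4.ge.trans inf_le_right))

theorem sup_eq (h : WCSub p L W A Y) {l : G} (hl : l ∈ L) (hne : l ∉ normalizer (Y : Set G)) :
    A ⊔ MulAut.conj l • A = L :=
  (h.min _ le_sup_left (sup_le h.AL (conj_smul_le_of_mem h.AL hl))).resolve_left fun hc =>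
    hne (h.fix_of_le hl (le_sup_right.trans hc))

theorem mem_centralizer_iff (h : WCSub p L W A Y) {l : G} (hl : l ∈ L)
    (hne : l ∉ normalizer (Y : Set G)) {w : G} : w ∈ centralizer (L : Set G) ↔
      w ∈ centralizer (A : Set G) ∧
      w ∈ centralizer ((MulAut.conj l • A : Subgroup G) : Set G) := by
  rw [← mem_centralizer_sup_iff, h.sup_eq hl hne]

theorem le_normalizer_Y (h : WCSub p L W A Y) : A ≤ normalizer (Y : Set G) :=
  le_normalizer_of_le_centralizer (le_centralizer_iff.1 h.YA)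

variable [Finite G]

theorem sup_centralizer_eq (h : WCSub p L W A Y) {l : G} (hl : l ∈ L)
    (hne : l ∉ normalizer (Y : Set G)) : (W ⊓ centralizer (A : Set G)) ⊔
      (W ⊓ centralizer ((MulAut.conj l • A : Subgroup G) : Set G)) = W := by
  have hle : (W ⊓ centralizer (A : Set G)) ⊔
      (W ⊓ centralizer ((MulAut.conj l • A : Subgroup G) : Set G)) ≤ W :=
    sup_le inf_le_left inf_le_left
  refine le_antisymm hle (h.gen _ ((le_inf h.YW h.YA).trans le_sup_left) ?_)
  refine (h.sup_eq hl hne).ge.trans (sup_le ?_ ?_)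
  · exact le_normalizer_of_commutator_mem hle fun a ha w hw =>
      mem_sup_left (mem_inf.2 ⟨h.commutator_mem (h.AL ha) hw, h.quad a ha w hw⟩)
  · exact le_normalizer_of_commutator_mem hle fun a ha w hw =>
      mem_sup_right (mem_inf.2 ⟨h.commutator_mem ((h.conj hl).AL ha) hw,
        (h.conj hl).quad a ha w hw⟩)

theorem exists_mul_eq (h : WCSub p L W A Y) {l : G} (hl : l ∈ L)
    (hne : l ∉ normalizer (Y : Set G)) {w : G} (hw : w ∈ W) :
    ∃ c ∈ W ⊓ centralizer (A : Set G),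
      ∃ d ∈ W ⊓ centralizer ((MulAut.conj l • A : Subgroup G) : Set G), c * d = w := by
  rw [← h.sup_centralizer_eq hl hne] at hw
  exact (H1.mem_sup_of_le_normalizer' (le_normalizer_of_le_centralizer
    (inf_le_left.trans (h.abW.le_centralizer.trans (centralizer_le inf_le_left))))).1 hw

theorem mem_centralizer_of_fix (h : WCSub p L W A Y) {l a : G} (hl : l ∈ L)
    (hne : l ∉ normalizer (Y : Set G)) (ha : a ∈ A)
    (hfix : a ∈ normalizer ((MulAut.conj l • Y : Subgroup G) : Set G)) :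
    a ∈ centralizer (W : Set G) := by
  have hap := isPGroup_iff_forall_mem.1 h.pA a ha
  have key : ∀ k ∈ L, a ∈ centralizer ((MulAut.conj k • Y : Subgroup G) : Set G) := by
    intro k hk
    refine (h.conj hk).cent a ?_ hap
    by_cases hk' : k ∈ normalizer (Y : Set G)
    · rw [conj_smul_eq_iff_mem_normalizer.2 hk']
      exact h.le_normalizer_Y ha
    obtain ⟨y, hy, hyA⟩ := SetLike.not_le_iff_exists.1 fun hc => hne (h.uniq l hl hc)
    obtain ⟨c, hc, d, hd, e⟩ := h.exists_mul_eq hk hk' ((h.conj hl).YW hy)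
    have hdL : d ∉ centralizer (L : Set G) := fun hdL =>
      hyA (e ▸ mul_mem hc.2 (centralizer_le h.AL hdL))
    refine (h.conj hk).fix_of_commutator hd.2 hdL (h.AL ha) ?_
    have h1 : Commute a (c * d) := by
      rw [e]; exact ((h.conj hl).cent a hfix hap y hy).symm
    have h2 : Commute a d := by
      have := (Commute.inv_right (hc.2 a ha : Commute a c)).mul_right h1
      rwa [inv_mul_cancel_left] at this
    rw [commutatorElement_eq_one_iff_commute.2 h2]
    exact one_mem _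
  let D : Subgroup G := closure {z | ∃ k ∈ L, ∃ y ∈ Y, z = k * y * k⁻¹}
  have hD : W ≤ D := h.gen D (fun y hy => subset_closure ⟨1, L.one_mem, y, hy, by simp⟩)
    fun k hk => mem_normalizer_of_finite ((isHomOn_conj ⊤ k).mapsTo_closure (fun _ _ => trivial) (by
      rintro _ ⟨k', hk', y, hy, rfl⟩
      exact subset_closure ⟨k * k', L.mul_mem hk hk', y, hy, by group⟩))
  rw [← zpowers_le_centralizer_iff]
  refine hD.trans ((closure_le _).2 ?_)
  rintro _ ⟨k, hk, y, hy, rfl⟩ _ ⟨n, rfl⟩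
  exact (Commute.zpow_left (key k hk _ (conj_mem_conj_smul_iff.2 hy)).symm n).eq

theorem exists_commutator_eq (h : WCSub p L W A Y)
    (hmax : Nat.card ((A ⊓ centralizer (W : Set G)) ⊔ W : Subgroup G) ≤ Nat.card A)
    {l : G} (hl : l ∈ L) (hne : l ∉ normalizer (Y : Set G)) {w : G} (hw : w ∈ W)
    (hwB : w ∈ centralizer ((MulAut.conj l • A : Subgroup G) : Set G))
    (hwL : w ∉ centralizer (L : Set G)) {c : G} (hc : c ∈ W ⊓ centralizer (A : Set G)) :
    ∃ a ∈ A, c⁻¹ * ⁅a, w⁆ ∈ centralizer (L : Set G) := by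
  set CA := W ⊓ centralizer (A : Set G) with hCA
  set CB := W ⊓ centralizer ((MulAut.conj l • A : Subgroup G) : Set G) with hCB
  set C₀ := CA ⊓ centralizer (L : Set G) with hC₀
  have hab : IsAb CA := h.abW.mono inf_le_left
  have hn : (C₀.subgroupOf CA).Normal := (normal_subgroupOf_iff_le_normalizer inf_le_left).2
    (le_normalizer_of_le_centralizer (hab.le_centralizer.trans (centralizer_le inf_le_left)))
  have hm : ∀ a : A, ⁅(a : G), w⁆ ∈ CA := fun a =>
    mem_inf.2 ⟨h.commutator_mem (h.AL a.2) hw, h.quad a a.2 w hw⟩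
  let θ : A →* CA ⧸ C₀.subgroupOf CA := MonoidHom.mk' (fun a => QuotientGroup.mk ⟨_, hm a⟩)
    fun a b => by
      rw [← QuotientGroup.mk_mul]
      congr 1
      refine Subtype.ext ?_
      show ⁅(a : G) * b, w⁆ = ⁅(a : G), w⁆ * ⁅(b : G), w⁆
      rw [H9.commutator_mul_left_of_commute ((hm b).2 a a.2), hab _ (hm b) _ (hm a)]
  have hker : θ.ker.map A.subtype ≤ A ⊓ centralizer (W : Set G) := by
    rintro _ ⟨a, ha, rfl⟩
    have h1 : ⁅(a : G), w⁆ ∈ C₀ := (QuotientGroup.eq_one_iff (N := C₀.subgroupOf CA) _).1 ha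
    exact mem_inf.2 ⟨a.2, h.mem_centralizer_of_fix hl hne a.2
      ((h.conj hl).fix_of_commutator hwB hwL (h.AL a.2) h1.2)⟩
  have e1 : Nat.card A = Nat.card θ.ker * Nat.card θ.range := by
    rw [← index_ker, card_mul_index]
  have e2 : Nat.card θ.ker ≤ Nat.card (A ⊓ centralizer (W : Set G) : Subgroup G) :=
    card_map_subtype θ.ker ▸ card_le_of_le hker
  have e3 := card_sup_mul_card_inf (le_normalizer_of_le_centralizer
    (inf_le_right : A ⊓ centralizer (W : Set G) ≤ centralizer (W : Set G)))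
  have e4 : Nat.card (A ⊓ centralizer (W : Set G) ⊓ W : Subgroup G) ≤ Nat.card CA :=
    card_le_of_le (le_inf inf_le_right (inf_le_left.trans (inf_le_left.trans h.abA.le_centralizer)))
  have e5 := card_sup_mul_card_inf (A := CA) (N := CB) (le_normalizer_of_le_centralizer
    (inf_le_left.trans (h.abW.le_centralizer.trans (centralizer_le inf_le_left))))
  have e6 : CA ⊓ CB = C₀ := by
    ext x
    simp only [hCA, hCB, hC₀, mem_inf, h.mem_centralizer_iff hl hne]
    tauto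
  have e7 : Nat.card CB = Nat.card CA := by
    rw [← card_smul (MulAut.conj l) CA, hCA, smul_inf, conj_smul_centralizer,
      conj_smul_eq_iff_mem_normalizer.2 (h.LW hl)]
  have e8 : Nat.card CA = Nat.card (CA ⧸ C₀.subgroupOf CA) * Nat.card C₀ := by
    rw [card_eq_card_quotient_mul_card_subgroup (C₀.subgroupOf CA),
      card_subgroupOf_of_le inf_le_left]
  rw [h.sup_centralizer_eq hl hne, e6, e7] at e5
  have p1 : 0 < Nat.card θ.ker := Nat.card_pos
  have p2 : 0 < Nat.card CA := Nat.card_pos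
  have p3 : 0 < Nat.card C₀ := Nat.card_pos
  have f1 : Nat.card θ.ker * Nat.card W ≤ Nat.card θ.ker * (Nat.card θ.range * Nat.card CA) :=
    calc Nat.card θ.ker * Nat.card W
        ≤ Nat.card (A ⊓ centralizer (W : Set G) : Subgroup G) * Nat.card W :=
          Nat.mul_le_mul_right _ e2
      _ ≤ Nat.card A * Nat.card CA := e3 ▸ Nat.mul_le_mul hmax e4
      _ = _ := by rw [e1, mul_assoc]
  have f2 : Nat.card CA * Nat.card CA ≤ Nat.card CA * (Nat.card θ.range * Nat.card C₀) :=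
    calc Nat.card CA * Nat.card CA = Nat.card W * Nat.card C₀ := e5.symm
      _ ≤ Nat.card θ.range * Nat.card CA * Nat.card C₀ :=
          Nat.mul_le_mul_right _ (Nat.le_of_mul_le_mul_left f1 p1)
      _ = _ := by ring
  have f3 := Nat.le_of_mul_le_mul_left f2 p2
  rw [e8] at f3
  have f4 : θ.range = ⊤ := eq_top_of_le_card _ (Nat.le_of_mul_le_mul_right f3 p3)
  obtain ⟨a, ha⟩ : (QuotientGroup.mk ⟨c, hc⟩ : CA ⧸ C₀.subgroupOf CA) ∈ θ.range := f4 ▸ trivial
  exact ⟨a, a.2, (QuotientGroup.eq.1 ha.symm).2⟩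

/-- The existence of a cyclic torus. -/
theorem exists_torus [hp : Fact p.Prime] (h : WCSub p L W A Y) (hp2 : p ≠ 2) (hW : IsPGroup p W)
    (hmax : Nat.card ((A ⊓ centralizer (W : Set G)) ⊔ W : Subgroup G) ≤ Nat.card A) :
    ∃ g ∈ normalizer (Y : Set G), ∃ C : Subgroup G, (∀ c ∈ C, g * c * g⁻¹ = c) ∧ ¬ Y ≤ C ∧
      ∀ u ∈ Y, ∀ v ∈ Y, u ∉ C → v ∉ C → ∃ n : ℕ, v⁻¹ * (g ^ n * u * (g ^ n)⁻¹) ∈ C := by
  obtain ⟨V, _, π, τ, hπ, hsurj, hker, hτ⟩ := exists_quot_action h.abW h.LW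
    (le_normalizer_centralizer (X := L) le_normalizer)
  have hYL : ¬ Y ≤ centralizer (L : Set G) := fun hc =>
    h.ne (le_normalizer_of_le_centralizer (le_centralizer_iff.1 hc))
  have heq : ∀ w ∈ W, ∀ w' ∈ W, π w = π w' ↔ w⁻¹ * w' ∈ centralizer (L : Set G) :=
    fun w hw w' hw' => by
      rw [← hker _ (W.mul_mem (W.inv_mem hw) hw'), hπ.map_mul (W.inv_mem hw) hw', hπ.map_inv hw,
        inv_mul_eq_one]
  have : Finite V := Finite.of_surjective (fun w : W => π w) fun v =>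
    (hsurj v).elim fun w hw => ⟨⟨w, hw.1⟩, hw.2⟩
  let U : Subgroup V := img (W ⊓ centralizer (A : Set G)) π
  have hU : ∀ {v}, v ∈ U ↔ ∃ w ∈ W ⊓ centralizer (A : Set G), π w = v :=
    (hπ.mono inf_le_left).mem_img
  have hU' : ∀ w ∈ W, π w ∈ U → w ∈ centralizer (A : Set G) := fun w hw hu => by
    obtain ⟨w', hw', e⟩ := hU.1 hu
    have := mul_mem hw'.2 (centralizer_le h.AL ((heq _ hw'.1 _ hw).1 e))
    rwa [mul_inv_cancel_left] at this
  have hcomm : ∀ (a : L), ∀ w ∈ W, τ a (π w) / π w = π ⁅(a : G), w⁆ := fun a w hw => by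
    rw [← hτ a w hw, commutatorElement_def, hπ.map_mul (conj_mem_of_mem_normalizer (h.LW a.2) hw)
      (W.inv_mem hw), hπ.map_inv hw, div_eq_mul_inv]
  have hcj : ∀ (l : L), ∀ w ∈ W ⊓ centralizer (A : Set G), (l : G) * w * (l : G)⁻¹ ∈ W ∧
      (l : G) * w * (l : G)⁻¹ ∈ centralizer ((MulAut.conj (l : G) • A : Subgroup G) : Set G) :=
    fun l w hw => ⟨conj_mem_of_mem_normalizer (h.LW l.2) hw.1,
      conj_mem_centralizer_conj_smul_iff.2 hw.2⟩
  have hne : ∀ (l : L), ∀ w ∈ W, π w ≠ 1 → (l : G) * w * (l : G)⁻¹ ∉ centralizer (L : Set G) :=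
    fun l w hw h1 hc => h1 ((hker w hw).2 (by
      have := inv_conj_mem_of_mem_normalizer
        (le_normalizer_centralizer (X := L) le_normalizer l.2) hc
      simpa [mul_assoc] using this))
  have hR : Rank1 ((endHom V).comp τ) (A.subgroupOf L) ((normalizer (Y : Set G)).subgroupOf L)
      U.toAddSubgroup := by
    refine ⟨fun a ha => h.le_normalizer_Y ha, fun a ha m => ?_, fun a ha u hu => ?_,
      fun l hl u hu hu' => ?_, fun l hl m => ?_, fun l hl d hd hd0 c hc => ?_,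
      fun l hl d hd hd0 a ha e => ?_, ?_, ?_, ?_⟩
    · obtain ⟨w, hw, e⟩ := hsurj m.toMul
      show τ a m.toMul / m.toMul ∈ U
      rw [← e, hcomm a w hw]
      exact mem_img_of_mem π (mem_inf.2 ⟨h.commutator_mem a.2 hw, h.quad a ha w hw⟩)
    · obtain ⟨w, hw, e⟩ := (hU (v := u.toMul)).1 hu
      show τ a u.toMul = u.toMul
      rw [← e, ← hτ a w hw.1, hw.2 a ha, mul_inv_cancel_right]
    · obtain ⟨w, hw, e⟩ := (hU (v := u.toMul)).1 hu
      have hu'' : τ l u.toMul ∈ U := hu'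
      rw [← e, ← hτ l w hw.1] at hu''
      by_contra h0
      exact hne l w hw.1 (fun e' => h0 (e.symm.trans e'))
        ((h.mem_centralizer_iff l.2 hl).2 ⟨hU' _ (hcj l w hw).1 hu'', (hcj l w hw).2⟩)
    · obtain ⟨w, hw, e⟩ := hsurj m.toMul
      obtain ⟨c, hc, d, hd, e'⟩ := h.exists_mul_eq l.2 hl hw
      have hd' : (l : G)⁻¹ * d * l ∈ W ⊓ centralizer (A : Set G) :=
        mem_inf.2 ⟨inv_conj_mem_of_mem_normalizer (h.LW l.2) hd.1,
          mem_centralizer_conj_smul_iff.1 hd.2⟩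
      refine ⟨Additive.ofMul (π c), mem_img_of_mem π hc, Additive.ofMul (π ((l : G)⁻¹ * d * l)),
        mem_img_of_mem π hd', ?_⟩
      show m.toMul = π c * τ l (π ((l : G)⁻¹ * d * l))
      rw [← hτ l _ hd'.1, ← e, ← e', hπ.map_mul hc.1 hd.1]
      congr 2; group
    · obtain ⟨w, hw, e⟩ := (hU (v := d.toMul)).1 hd
      obtain ⟨c', hc', e'⟩ := (hU (v := c.toMul)).1 hc
      obtain ⟨a, ha, h1⟩ := h.exists_commutator_eq hmax l.2 hl (hcj l w hw).1 (hcj l w hw).2
        (hne l w hw.1 fun e' => hd0 (e.symm.trans e')) hc'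
      refine ⟨⟨a, h.AL ha⟩, ha, ?_⟩
      show τ _ (τ l d.toMul) / τ l d.toMul = c.toMul
      rw [← e, ← e', ← hτ l w hw.1, hcomm _ _ (hcj l w hw).1]
      exact ((heq _ hc'.1 _ (h.commutator_mem (h.AL ha) (hcj l w hw).1)).2 h1).symm
    · obtain ⟨w, hw, e1⟩ := (hU (v := d.toMul)).1 hd
      have e2 : τ a (τ l d.toMul) = τ l d.toMul := e
      rw [← e1, ← hτ l w hw.1, ← div_eq_one, hcomm _ _ (hcj l w hw).1,
        hker _ (h.commutator_mem a.2 (hcj l w hw).1)] at e2
      have h1 := h.mem_centralizer_of_fix (a := a) l.2 hl ha ((h.conj l.2).fix_of_commutator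
        (hcj l w hw).2 (hne l w hw.1 fun e' => hd0 (e1.symm.trans e')) a.2 e2)
      refine AddMonoidHom.ext fun m => ?_
      obtain ⟨w', hw', e'⟩ := hsurj m.toMul
      show τ a m.toMul = m.toMul
      rw [← e', ← hτ a w' hw', ← h1 w' hw', mul_inv_cancel_right]
    · obtain ⟨l, hl, hl'⟩ := SetLike.not_le_iff_exists.1 h.ne
      exact ⟨⟨l, hl⟩, hl'⟩
    · obtain ⟨y, hy, hy'⟩ := SetLike.not_le_iff_exists.1 hYL
      exact ⟨Additive.ofMul (π y), mem_img_of_mem π (mem_inf.2 ⟨h.YW hy, h.YA hy⟩),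
        fun e => hy' ((hker y (h.YW hy)).1 e)⟩
    · obtain ⟨n, hn⟩ := hW.exists_card_eq
      obtain ⟨t, ht⟩ : Odd (p ^ n) := (hp.out.odd_of_ne_two hp2).pow
      refine ⟨t + 1, fun m => ?_⟩
      obtain ⟨w, hw, e⟩ := hsurj m.toMul
      show (m.toMul * m.toMul) ^ (t + 1) = m.toMul
      have : w ^ (2 * t + 1) = 1 := by
        rw [← ht, ← hn]
        exact congrArg Subtype.val (pow_card_eq_one' (x := (⟨w, hw⟩ : W)))
      rw [← e, ← pow_two, ← pow_mul, show 2 * (t + 1) = 2 * t + 1 + 1 from rfl, pow_succ,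
        ← hπ.map_pow hw, this, hπ.map_one, one_mul]
  obtain ⟨g, hg, hg'⟩ := hR.exists_torus
  refine ⟨g, hg, centralizer (L : Set G), fun c hc => by rw [hc g g.2, mul_inv_cancel_right], hYL,
    fun u hu v hv hu' hv' => ?_⟩
  obtain ⟨n, hn⟩ := hg' (Additive.ofMul (π u)) (mem_img_of_mem π (mem_inf.2 ⟨h.YW hu, h.YA hu⟩))
    (Additive.ofMul (π v)) (mem_img_of_mem π (mem_inf.2 ⟨h.YW hv, h.YA hv⟩))
    (fun e => hu' ((hker u (h.YW hu)).1 e)) fun e => hv' ((hker v (h.YW hv)).1 e)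
  have e : τ (g ^ n) (π u) = π v := hn
  rw [← hτ _ u (h.YW hu)] at e
  exact ⟨n, (heq _ (h.YW hv) _ (conj_mem_of_mem_normalizer (h.LW (g ^ n).2) (h.YW hu))).1 e.symm⟩

end WCSub

end Group

end Cfsg.Agent.H1
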